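import Mathlib

/-!
# A lower bound for the adjugate quadratic form of a Gram matrix

For an integral matrix `D` with `l` columns none of whose rows is needed to span, and a nonzero
integral vector `x`, the determinant of the Gram matrix grows by at least `l` when the row `x` is
added.  This comes from the Cauchy-Binet formula in the symmetrised form
`l ! * det (Aᵀ A) = ∑_f det (A_f) ^ 2`.
-/

set_option autoImplicit false

open Matrix

namespace Cfsg.Agent.H20.BrauerFeit

/-- Symmetrised Cauchy-Binet. -/
theorem factorial_mul_det_gram {R : Type*} [CommRing R] {m n : Type*} [Fintype m] [Fintype n]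
    [DecidableEq m] [DecidableEq n] (A : Matrix m n R) :
    ((Fintype.card n).factorial : R) * (Aᵀ * A).det = ∑ f : n → m, (A.submatrix f id).det ^ 2 := by
  have h1 : (Aᵀ * A).det = ∑ f : n → m, (∏ j, A (f j) j) * (A.submatrix f id).det := by
    rw [det_apply']
    simp only [mul_apply, transpose_apply, Fintype.prod_sum, Finset.mul_sum]
    rw [Finset.sum_comm]
    refine Finset.sum_congr rfl fun f _ => ?_
    rw [← det_transpose (A.submatrix f id), det_apply', Finset.mul_sum]
    refine Finset.sum_congr rfl fun σ _ => ?_
    simp only [transpose_apply, submatrix_apply, id_eq, Finset.prod_mul_distrib]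
    ring
  have h2 : ∀ σ : Equiv.Perm n, (Aᵀ * A).det = ∑ f : n → m,
      (∏ j, A (f (σ j)) j) * ((Equiv.Perm.sign σ : ℤ) : R) * (A.submatrix f id).det := by
    intro σ
    rw [h1]
    refine (Fintype.sum_equiv ((Equiv.arrowCongr σ (Equiv.refl m)).symm) _ _ fun f => ?_).symm
    have hsub : A.submatrix ((Equiv.arrowCongr σ (Equiv.refl m)).symm f) id =
        (A.submatrix f id).submatrix σ id := by
      ext i j
      rfl
    rw [hsub, det_permute]
    simp [mul_assoc]
  calc ((Fintype.card n).factorial : R) * (Aᵀ * A).det
      = ∑ σ : Equiv.Perm n, (Aᵀ * A).det := by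
        rw [Finset.sum_const, Finset.card_univ, Fintype.card_perm, nsmul_eq_mul]
    _ = ∑ σ : Equiv.Perm n, ∑ f : n → m,
        (∏ j, A (f (σ j)) j) * ((Equiv.Perm.sign σ : ℤ) : R) * (A.submatrix f id).det :=
        Finset.sum_congr rfl fun σ _ => h2 σ
    _ = ∑ f : n → m, (A.submatrix f id).det ^ 2 := by
        rw [Finset.sum_comm]
        refine Finset.sum_congr rfl fun f _ => ?_
        rw [← Finset.sum_mul, pow_two]
        congr 1
        rw [det_apply']
        exact Finset.sum_congr rfl fun σ _ => by simp only [submatrix_apply, id_eq]; ring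

variable {k : Type*} [Fintype k] [DecidableEq k] {l : ℕ}

/-- The rows together with one more row `x`. -/
def addRow (D : Matrix k (Fin l) ℤ) (x : Fin l → ℤ) : Matrix (Option k) (Fin l) ℤ :=
  Matrix.of fun o => Option.elim o x D

omit [DecidableEq k] in
theorem gram_addRow (D : Matrix k (Fin l) ℤ) (x : Fin l → ℤ) :
    (addRow D x)ᵀ * addRow D x = Dᵀ * D + vecMulVec x x := by
  ext i j
  rw [mul_apply, Fintype.sum_option, Matrix.add_apply, mul_apply, vecMulVec_apply, add_comm]
  rfl

/-- The rows of a selection as rational vectors. -/
def ratRows (D : Matrix k (Fin l) ℤ) (x : Fin l → ℤ) (f : Fin l → Option k) : Fin l → Fin l → ℚ :=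
  fun i j => ((addRow D x (f i) j : ℤ) : ℚ)

omit [Fintype k] [DecidableEq k] in
theorem det_ne_zero_of_rows {D : Matrix k (Fin l) ℤ} {x : Fin l → ℤ} {f : Fin l → Option k}
    (h : LinearIndependent ℚ (ratRows D x f)) : ((addRow D x).submatrix f id).det ≠ 0 := by
  intro h0
  have h1 : (((addRow D x).submatrix f id).map (Int.castRingHom ℚ)).det = 0 := by
    rw [← RingHom.mapMatrix_apply, ← RingHom.map_det, h0, map_zero]
  have h2 : IsUnit (Matrix.of (ratRows D x f)) := Matrix.linearIndependent_rows_iff_isUnit.mp h
  rw [Matrix.isUnit_iff_isUnit_det] at h2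
  exact h2.ne_zero h1

/-- Distinct selections of independent rows containing `x`, one for each column. -/
theorem exists_selections (D : Matrix k (Fin l) ℤ) {x : Fin l → ℤ} (hx : x ≠ 0)
    (hfull : ∀ v : Fin l → ℚ, (∀ i, ∑ j, (D i j : ℚ) * v j = 0) → v = 0)
    (hco : ∀ (i₀ : k) (v : Fin l → ℚ), (∀ i, i ≠ i₀ → ∑ j, (D i j : ℚ) * v j = 0) → v = 0) :
    ∃ g : Fin l → Fin l → Option k, (∀ i, (∃ j, g i j = none) ∧
      Function.Injective (g i) ∧ LinearIndependent ℚ (ratRows D x (g i))) ∧
      ∀ i i', Set.range (g i) = Set.range (g i') → i = i' := by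
  classical
  let r : k → Fin l → ℚ := fun i j => (D i j : ℚ)
  have hspan : Submodule.span ℚ (Set.range r) = ⊤ := by
    by_contra hne
    obtain ⟨φ, hφ, hker⟩ := Submodule.exists_dual_map_eq_bot_of_lt_top (lt_top_iff_ne_top.mpr hne)
      inferInstance
    refine hφ (LinearMap.pi_ext' fun j => LinearMap.ext_ring ?_)
    have hv := hfull (fun j => φ (Pi.single j 1)) fun i => by
      have hi : φ (r i) = 0 := by
        have h : φ (r i) ∈ (Submodule.span ℚ (Set.range r)).map φ :=
          Submodule.mem_map_of_mem (Submodule.subset_span ⟨i, rfl⟩)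
        rwa [hker, Submodule.mem_bot] at h
      conv at hi => lhs; rw [pi_eq_sum_univ (r i), map_sum]
      simp only [map_smul, smul_eq_mul, r] at hi
      refine Eq.trans (Finset.sum_congr rfl fun j _ => ?_) hi
      congr 2
      ext m
      simp [Pi.single_apply, eq_comm]
    simpa using congrFun hv j
  obtain ⟨b, hbsub, hbspan, hbli⟩ := exists_linearIndependent ℚ (Set.range r)
  rw [hspan] at hbspan
  let B : Module.Basis b ℚ (Fin l → ℚ) := Module.Basis.mk hbli (by
    rw [Subtype.range_coe_subtype]; exact hbspan.ge)
  haveI : Fintype b := FiniteDimensional.fintypeBasisIndex B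
  have hcard : Fintype.card b = l := by
    rw [← Module.finrank_eq_card_basis B, Module.finrank_fin_fun]
  let eb : Fin l ≃ b := (Fintype.equivFinOfCardEq hcard).symm
  let E : Module.Basis (Fin l) ℚ (Fin l → ℚ) := B.reindex eb.symm
  have hE : ∀ i, E i = ((eb i : b) : Fin l → ℚ) := fun i => by simp [E, B]
  have hsel : ∀ i, ∃ a : k, r a = E i := by
    intro i
    obtain ⟨h⟩ : Nonempty ((eb i : Fin l → ℚ) ∈ Set.range r) := ⟨by
      have hsub := hbsub
      exact hsub (eb i).2⟩
    obtain ⟨a, ha⟩ := h
    exact ⟨a, by rw [hE, ha]⟩
  choose sel hsel using hsel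
  have hselinj : Function.Injective sel := fun i j h => E.injective (by rw [← hsel, ← hsel, h])
  let xq : Fin l → ℚ := fun j => (x j : ℚ)
  let y : Fin l → ℚ := fun i => E.repr xq i
  obtain ⟨j₀, hj₀⟩ : ∃ j, y j ≠ 0 := by
    by_contra hcon
    push Not at hcon
    refine hx (funext fun j => ?_)
    have : xq = 0 := by
      rw [← E.sum_repr xq]
      exact Finset.sum_eq_zero fun i _ => by rw [show E.repr xq i = 0 from hcon i, zero_smul]
    have h := congrFun this j
    simp only [xq, Pi.zero_apply, Int.cast_eq_zero] at h
    exact h
  have hu : ∀ i, y i = 0 → ∃ u : k, E.repr (r u) i ≠ 0 ∧ ∀ m, u ≠ sel m := by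
    intro i _
    by_contra hcon
    push Not at hcon
    have hz : ∀ u : k, u ≠ sel i → E.repr (r u) i = 0 := by
      intro u hne
      by_contra h
      obtain ⟨m, rfl⟩ := hcon u h
      apply h
      rw [hsel, E.repr_self, Finsupp.single_eq_of_ne]
      rintro rfl
      exact hne rfl
    let φ : (Fin l → ℚ) →ₗ[ℚ] ℚ := E.coord i
    have hv := hco (sel i) (fun j => φ (Pi.single j 1)) fun u hne => by
      have h : φ (r u) = 0 := hz u hne
      conv at h => lhs; rw [pi_eq_sum_univ (r u), map_sum]
      simp only [map_smul, smul_eq_mul, r] at h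
      refine Eq.trans (Finset.sum_congr rfl fun j _ => ?_) h
      congr 2
      ext m
      simp [Pi.single_apply, eq_comm]
    have h0 : φ = 0 := LinearMap.pi_ext' fun j => LinearMap.ext_ring (by simpa using congrFun hv j)
    have h1 : φ (E i) = 1 := by simp [φ]
    rw [h0] at h1
    exact zero_ne_one h1
  choose u hu1 hu2 using hu
  let f₀ : Fin l → Fin l → Option k := fun j => Function.update (fun m => some (sel m)) j none
  let g : Fin l → Fin l → Option k := fun i =>
    if hi : y i = 0 then Function.update (f₀ j₀) i (some (u i hi)) else f₀ i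
  have hrow : ∀ o, (fun j => ((addRow D x o j : ℤ) : ℚ)) = Option.elim o xq r := by
    intro o; cases o <;> rfl
  refine ⟨g, fun i => ?_, fun i i' h => ?_⟩
  · by_cases hi : y i = 0
    · have hij : i ≠ j₀ := fun h => hj₀ (h ▸ hi)
      have hgi : g i = Function.update (f₀ j₀) i (some (u i hi)) := by simp only [g, dif_pos hi]
      refine ⟨⟨j₀, by simp [hgi, f₀, hij.symm]⟩, ?_, ?_⟩
      · intro m m' h
        simp only [hgi, f₀, Function.update_apply] at h
        by_cases a : m = i <;> by_cases b : m' = i
        · rw [a, b]
        · rw [if_pos a, if_neg b] at h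
          split_ifs at h with c
          exact absurd (Option.some.inj h) (hu2 i hi _)
        · rw [if_neg a, if_pos b] at h
          split_ifs at h with c
          exact absurd (Option.some.inj h).symm (hu2 i hi _)
        · rw [if_neg a, if_neg b] at h
          by_cases c : m = j₀ <;> by_cases e : m' = j₀
          · rw [c, e]
          · rw [if_pos c, if_neg e] at h; cases h
          · rw [if_neg c, if_pos e] at h; cases h
          · rw [if_neg c, if_neg e] at h; exact hselinj (Option.some.inj h)
      · rw [Fintype.linearIndependent_iff]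
        intro c hc
        have hvec : ∀ m, ratRows D x (g i) m =
            if m = i then r (u i hi) else if m = j₀ then xq else E m := by
          intro m
          show (fun j => ((addRow D x (g i m) j : ℤ) : ℚ)) = _
          rw [hrow, hgi]
          simp only [f₀, Function.update_apply]
          split_ifs <;> simp [hsel]
        simp only [hvec] at hc
        have hco' : ∀ t, ∑ m, c m * E.repr (if m = i then r (u i hi) else if m = j₀ then xq else E m) t
            = 0 := fun t => by
          have := congrArg (fun v => E.repr v t) hc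
          simpa only [map_sum, map_smul, Finsupp.finsetSum_apply, Finsupp.smul_apply, smul_eq_mul,
            map_zero, Finsupp.coe_zero, Pi.zero_apply] using this
        have hci : c i = 0 := by
          have h := hco' i
          rw [Finset.sum_eq_single i (fun m _ hm => ?_) (by simp), if_pos rfl] at h
          · exact (mul_eq_zero.mp h).resolve_right (hu1 i hi)
          · rw [if_neg hm]
            split_ifs with hmj
            · rw [show E.repr xq i = 0 from hi, mul_zero]
            · simp [Finsupp.single_eq_of_ne (Ne.symm hm)]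
        have hcj : c j₀ = 0 := by
          have h := hco' j₀
          rw [Finset.sum_eq_single j₀ (fun m _ hm => ?_) (by simp), if_neg hij.symm,
            if_pos rfl] at h
          · exact (mul_eq_zero.mp h).resolve_right hj₀
          · split_ifs with hmi
            · rw [hmi, hci, zero_mul]
            · simp [Finsupp.single_eq_of_ne (Ne.symm hm)]
        intro m
        by_cases hmi : m = i
        · rw [hmi, hci]
        by_cases hmj : m = j₀
        · rw [hmj, hcj]
        have h := hco' m
        rw [Finset.sum_eq_single m (fun t _ ht => ?_) (by simp), if_neg hmi, if_neg hmj] at h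
        · simpa using h
        · split_ifs with a b
          · rw [a, hci, zero_mul]
          · rw [b, hcj, zero_mul]
          · simp [Finsupp.single_eq_of_ne (Ne.symm ht)]
    · have hgi : g i = f₀ i := by simp only [g, dif_neg hi]
      refine ⟨⟨i, by simp [hgi, f₀]⟩, ?_, ?_⟩
      · intro m m' h
        simp only [hgi, f₀, Function.update_apply] at h
        by_cases c : m = i <;> by_cases e : m' = i
        · rw [c, e]
        · rw [if_pos c, if_neg e] at h; cases h
        · rw [if_neg c, if_pos e] at h; cases h
        · rw [if_neg c, if_neg e] at h; exact hselinj (Option.some.inj h)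
      · rw [Fintype.linearIndependent_iff]
        intro c hc
        have hvec : ∀ m, ratRows D x (g i) m = if m = i then xq else E m := by
          intro m
          show (fun j => ((addRow D x (g i m) j : ℤ) : ℚ)) = _
          rw [hrow, hgi]
          simp only [f₀, Function.update_apply]
          split_ifs <;> simp [hsel]
        simp only [hvec] at hc
        have hco' : ∀ t, ∑ m, c m * E.repr (if m = i then xq else E m) t = 0 := fun t => by
          have := congrArg (fun v => E.repr v t) hc
          simpa only [map_sum, map_smul, Finsupp.finsetSum_apply, Finsupp.smul_apply, smul_eq_mul,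
            map_zero, Finsupp.coe_zero, Pi.zero_apply] using this
        have hci : c i = 0 := by
          have h := hco' i
          rw [Finset.sum_eq_single i (fun m _ hm => ?_) (by simp), if_pos rfl] at h
          · exact (mul_eq_zero.mp h).resolve_right hi
          · simp [hm, Finsupp.single_eq_of_ne (Ne.symm hm)]
        intro m
        by_cases hmi : m = i
        · rw [hmi, hci]
        have h := hco' m
        rw [Finset.sum_eq_single m (fun t _ ht => ?_) (by simp), if_neg hmi] at h
        · simpa using h
        · split_ifs with a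
          · rw [a, hci, zero_mul]
          · simp [Finsupp.single_eq_of_ne (Ne.symm ht)]
  · -- the missing rows determine the selection
    have hmiss : ∀ t, ∀ m, some (sel m) ∈ Set.range (g t) ↔
        ¬ (m = t ∨ (y t = 0 ∧ m = j₀)) := by
      intro t m
      by_cases ht : y t = 0
      · have hgt : g t = Function.update (f₀ j₀) t (some (u t ht)) := by simp only [g, dif_pos ht]
        simp only [Set.mem_range, hgt, f₀, Function.update_apply]
        constructor
        · rintro ⟨s, hs⟩
          split_ifs at hs with a b
          · exact absurd (Option.some.inj hs) (hu2 t ht m)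
          · have := hselinj (Option.some.inj hs)
            subst this
            rintro (h' | ⟨-, h'⟩)
            · exact a h'
            · exact b h'
        · intro hm
          push Not at hm
          exact ⟨m, by rw [if_neg hm.1, if_neg (hm.2 ht)]⟩
      · have hgt : g t = f₀ t := by simp only [g, dif_neg ht]
        simp only [Set.mem_range, hgt, f₀, Function.update_apply]
        constructor
        · rintro ⟨s, hs⟩
          split_ifs at hs with a
          have := hselinj (Option.some.inj hs)
          subst this
          rintro (h' | ⟨h0, -⟩)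
          · exact a h'
          · exact ht h0
        · intro hm
          push Not at hm
          exact ⟨m, by rw [if_neg hm.1]⟩
    have key : ∀ m, (m = i ∨ (y i = 0 ∧ m = j₀)) ↔ (m = i' ∨ (y i' = 0 ∧ m = j₀)) := fun m =>
      not_iff_not.mp ((hmiss i m).symm.trans ((h ▸ Iff.rfl : _ ↔ some (sel m) ∈ Set.range (g i')).trans (hmiss i' m)))
    rcases (key i).mp (Or.inl rfl) with h1 | ⟨h1, h2⟩
    · exact h1
    · rcases (key i').mpr (Or.inl rfl) with h3 | ⟨h3, -⟩
      · exact h3.symm
      · exact absurd (h2 ▸ h3) hj₀

/-- **The bound.** -/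
theorem card_le_det_addRow_sub (D : Matrix k (Fin l) ℤ) {x : Fin l → ℤ} (hx : x ≠ 0)
    (hfull : ∀ v : Fin l → ℚ, (∀ i, ∑ j, (D i j : ℚ) * v j = 0) → v = 0)
    (hco : ∀ (i₀ : k) (v : Fin l → ℚ), (∀ i, i ≠ i₀ → ∑ j, (D i j : ℚ) * v j = 0) → v = 0) :
    (l : ℤ) ≤ (Dᵀ * D + vecMulVec x x).det - (Dᵀ * D).det := by
  classical
  obtain ⟨g, hg, hdist⟩ := exists_selections D hx hfull hco
  have h1 := factorial_mul_det_gram (R := ℤ) (addRow D x)
  have h2 := factorial_mul_det_gram (R := ℤ) D
  rw [gram_addRow, Fintype.card_fin] at h1
  rw [Fintype.card_fin] at h2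
  set S := Finset.univ.filter (fun f : Fin l → Option k => ∀ j, f j ≠ none) with hS
  have hsum : ∑ f ∈ S, ((addRow D x).submatrix f id).det ^ 2 =
      ∑ f : Fin l → k, (D.submatrix f id).det ^ 2 := by
    symm
    refine Finset.sum_nbij (fun f j => some (f j)) (fun f _ => by simp [hS]) ?_ ?_ (fun f _ => rfl)
    · intro f _ f' _ h
      funext j
      exact Option.some.inj (congrFun h j)
    · intro f hf
      simp only [hS, Finset.coe_filter, Finset.mem_univ, true_and, Set.mem_ofPred_eq] at hf
      refine ⟨fun j => (f j).get (Option.ne_none_iff_isSome.mp (hf j)), Finset.mem_coe.mpr (Finset.mem_univ _), ?_⟩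
      funext j
      simp
  let T : Finset (Fin l → Option k) :=
    (Finset.univ : Finset (Fin l × Equiv.Perm (Fin l))).image fun q => g q.1 ∘ q.2
  have hT : T.card = l * l.factorial := by
    rw [Finset.card_image_of_injective, Finset.card_univ, Fintype.card_prod, Fintype.card_fin,
      Fintype.card_perm, Fintype.card_fin]
    rintro ⟨i, σ⟩ ⟨i', σ'⟩ h
    simp only at h
    have hr : Set.range (g i) = Set.range (g i') := by
      rw [← σ.surjective.range_comp (g i), h, σ'.surjective.range_comp (g i')]
    obtain rfl := hdist i i' hr
    simp only [Prod.mk.injEq, true_and]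
    exact Equiv.ext fun j => (hg i).2.1 (congrFun h j)
  have hdisj : ∀ f ∈ T, f ∈ Sᶜ := by
    intro f hf
    obtain ⟨⟨i, σ⟩, -, rfl⟩ := Finset.mem_image.mp hf
    obtain ⟨j, hj⟩ := (hg i).1
    simp only [hS, Finset.mem_compl, Finset.mem_filter, Finset.mem_univ, true_and, not_forall,
      not_not]
    exact ⟨σ.symm j, by simp [hj]⟩
  have hone : ∀ f ∈ T, (1 : ℤ) ≤ ((addRow D x).submatrix f id).det ^ 2 := by
    intro f hf
    obtain ⟨⟨i, σ⟩, -, rfl⟩ := Finset.mem_image.mp hf
    have h0 : 0 < ((addRow D x).submatrix (g i ∘ σ) id).det ^ 2 := sq_pos_iff.mpr ?_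
    · show (1 : ℤ) ≤ ((addRow D x).submatrix (g i ∘ σ) id).det ^ 2
      omega
    exact det_ne_zero_of_rows ((hg i).2.2.comp σ σ.injective)
  have key : (l.factorial : ℤ) * l ≤ (l.factorial : ℤ) *
      ((Dᵀ * D + vecMulVec x x).det - (Dᵀ * D).det) := by
    rw [mul_sub, h1, h2, ← hsum, ← Finset.sum_compl_add_sum S, add_sub_cancel_right]
    calc (l.factorial : ℤ) * l = ∑ f ∈ T, (1 : ℤ) := by
          rw [Finset.sum_const, hT]; simp [mul_comm]
      _ ≤ ∑ f ∈ T, ((addRow D x).submatrix f id).det ^ 2 := Finset.sum_le_sum hone
      _ ≤ _ := Finset.sum_le_sum_of_subset_of_nonneg hdisj fun f _ _ => sq_nonneg _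
  exact le_of_mul_le_mul_left key (by exact_mod_cast l.factorial_pos)

/-- An integral matrix of rank one modulo `p` has determinant divisible by `p ^ (l - 1)`. -/
theorem pow_dvd_det_of_rank_one {l : ℕ} {p : ℤ} (R : Matrix (Fin l) (Fin l) ℤ)
    (a b : Fin l → ℤ) (h : ∀ i j, p ∣ R i j - a i * b j) : p ^ (l - 1) ∣ R.det := by
  classical
  choose N hN using h
  have hR : R = Matrix.of (fun i j => a i * b j) + p • Matrix.of N := by
    ext i j
    simp only [Matrix.add_apply, Matrix.of_apply, Matrix.smul_apply, smul_eq_mul]
    linarith [hN i j]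
  have hexp : R.det = ∑ s : Finset (Fin l), Matrix.detRowAlternating
      (s.piecewise (fun i j => a i * b j) (fun i => p • N i)) := by
    rw [hR]
    exact AlternatingMap.map_add_univ Matrix.detRowAlternating (fun i j => a i * b j) (fun i => p • N i)
  rw [hexp]
  refine Finset.dvd_sum fun s _ => ?_
  by_cases hs : s.card ≤ 1
  · have h1 : Matrix.detRowAlternating (s.piecewise (fun i j => a i * b j) (fun i => p • N i)) =
        (∏ i, if i ∈ s then (1 : ℤ) else p) • Matrix.detRowAlternating
          (s.piecewise (fun i j => a i * b j) (fun i => N i)) := by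
      rw [← AlternatingMap.map_smul_univ]
      congr 1
      funext i
      by_cases hi : i ∈ s <;> simp [hi]
    rw [h1, smul_eq_mul]
    refine Dvd.dvd.mul_right ?_ _
    rw [Finset.prod_ite, Finset.prod_const_one, one_mul, Finset.prod_const]
    refine pow_dvd_pow _ ?_
    have := Finset.card_compl s
    rw [Fintype.card_fin] at this
    exact (show l - 1 ≤ sᶜ.card by omega).trans (Finset.card_le_card fun i hi => by simpa using hi)
  · obtain ⟨i, hi, i', hi', hne⟩ := Finset.one_lt_card.mp (show 1 < s.card by omega)
    have h0 : Matrix.detRowAlternating (s.piecewise (fun i j => a i * b j) (fun i => p • N i)) = 0 := by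
      have h2 : ∀ v : Fin l → Fin l → ℤ, v i = a i • b → v i' = a i' • b →
          Matrix.detRowAlternating v = 0 := by
        intro v h1 h2
        have hv : v = Function.update (Function.update v i (a i • b)) i' (a i' • b) := by
          rw [← h1, Function.update_eq_self, ← h2, Function.update_eq_self]
        rw [hv, AlternatingMap.map_update_smul, Function.update_comm hne,
          AlternatingMap.map_update_smul, Function.update_comm hne.symm]
        rw [AlternatingMap.map_eq_zero_of_eq _ _ (show
          Function.update (Function.update v i b) i' b i = Function.update (Function.update v i b) i' b i' by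
            simp [hne]) hne, smul_zero, smul_zero]
      refine h2 _ ?_ ?_
      · rw [Finset.piecewise_eq_of_mem _ _ _ hi]; rfl
      · rw [Finset.piecewise_eq_of_mem _ _ _ hi']; rfl
    rw [h0]
    exact dvd_zero _

end Cfsg.Agent.H20.BrauerFeit
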