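import Cfsg.Agent.H20.BrauerFeit.Gram

/-!
# A lattice bound and twisted sums over the roots of unity of prime order

If an integral form `R` has rank one modulo the prime `p` and `R (Cᵀ C) = p` for an integral
matrix `C` none of whose rows is needed for full rank, then each nonzero value of the form is at
least the dimension.  Averaged over the nontrivial twists by roots of unity of order `p`, a sum
with coefficients from such a form is then at least `(p - 1)` times the dimension.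
-/

set_option autoImplicit false

open Matrix

namespace Cfsg.Agent.H20.BrauerFeit

theorem det_natCast_smul_one_add {m : ℕ} {p : ℤ} (hp : p ≠ 0) (u v : Fin m → ℤ) :
    (p • (1 : Matrix (Fin m) (Fin m) ℤ) + vecMulVec u v).det * p = p ^ m * (p + v ⬝ᵥ u) := by
  have hq : (p : ℚ) ≠ 0 := Int.cast_ne_zero.2 hp
  apply Int.cast_injective (α := ℚ)
  simp only [Int.cast_mul, Int.cast_pow, Int.cast_add]
  rw [show (((p • (1 : Matrix (Fin m) (Fin m) ℤ) + vecMulVec u v).det : ℤ) : ℚ) =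
    ((p • (1 : Matrix (Fin m) (Fin m) ℤ) + vecMulVec u v).map (Int.castRingHom ℚ)).det by
      rw [← RingHom.mapMatrix_apply, ← RingHom.map_det]; rfl]
  have hM : (p • (1 : Matrix (Fin m) (Fin m) ℤ) + vecMulVec u v).map (Int.castRingHom ℚ) =
      (p : ℚ) • (1 + replicateCol Unit (fun i => (u i : ℚ) / (p : ℚ)) *
        replicateRow Unit (fun i => (v i : ℚ))) := by
    ext i j
    simp only [Matrix.map_apply, Matrix.add_apply, Matrix.smul_apply, vecMulVec_apply,
      Matrix.mul_apply, replicateCol_apply, replicateRow_apply, Finset.univ_unique,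
      Finset.sum_singleton, smul_eq_mul, eq_intCast, Matrix.one_apply]
    split_ifs <;> · push_cast; field_simp
  rw [hM, det_smul, det_one_add_replicateCol_mul_replicateRow, Fintype.card_fin]
  simp only [dotProduct, Int.cast_sum, Int.cast_mul]
  rw [mul_assoc, add_mul, one_mul, Finset.sum_mul]
  congr 2
  exact Finset.sum_congr rfl fun i _ => by field_simp

/-- The value of the form is at least the dimension. -/
theorem le_form_of_data {κ : Type*} [Fintype κ] [DecidableEq κ] {m : ℕ} {p : ℕ} (hp : 0 < p)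
    (R : Matrix (Fin m) (Fin m) ℤ) (C : Matrix κ (Fin m) ℤ)
    (hRC : R * (Cᵀ * C) = (p : ℤ) • (1 : Matrix (Fin m) (Fin m) ℤ)) (a b : Fin m → ℤ)
    (hrank : ∀ i j, (p : ℤ) ∣ R i j - a i * b j)
    (hco : ∀ (i₀ : κ) (v : Fin m → ℚ), (∀ i, i ≠ i₀ → ∑ j, (C i j : ℚ) * v j = 0) → v = 0)
    {x : Fin m → ℤ} (hx : x ≠ 0) : (m : ℤ) ≤ x ⬝ᵥ (R *ᵥ x) := by
  classical
  have hp0 : (p : ℤ) ≠ 0 := by exact_mod_cast hp.ne'
  have hppos : (0 : ℤ) < (p : ℤ) := by exact_mod_cast hp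
  have hdet : R.det * (Cᵀ * C).det = (p : ℤ) ^ m := by
    rw [← det_mul, hRC, det_smul, det_one, mul_one, Fintype.card_fin]
  have hnn : 0 ≤ (Cᵀ * C).det := by
    have h := factorial_mul_det_gram (R := ℤ) C
    refine nonneg_of_mul_nonneg_right (a := ((Fintype.card (Fin m)).factorial : ℤ)) ?_
      (by exact_mod_cast Nat.factorial_pos _)
    rw [h]
    exact Finset.sum_nonneg fun f _ => sq_nonneg _
  have hfull : ∀ v : Fin m → ℚ, (∀ i, ∑ j, (C i j : ℚ) * v j = 0) → v = 0 := by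
    intro v hv
    have hCv : C.map (Int.castRingHom ℚ) *ᵥ v = 0 := funext fun i => by
      simpa [Matrix.mulVec, dotProduct] using hv i
    have h1 : ((Cᵀ * C).map (Int.castRingHom ℚ)) *ᵥ v = 0 := by
      rw [Matrix.map_mul, ← Matrix.mulVec_mulVec, hCv, Matrix.mulVec_zero]
    by_contra hv0
    have h2 := Matrix.exists_mulVec_eq_zero_iff.1 ⟨v, hv0, h1⟩
    rw [← RingHom.mapMatrix_apply, ← RingHom.map_det, eq_intCast, Int.cast_eq_zero] at h2
    rw [h2, mul_zero] at hdet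
    exact pow_ne_zero _ hp0 hdet.symm
  have hΔ := card_le_det_addRow_sub C hx hfull hco
  have hRpos : 0 < R.det := by
    have hpm : (0 : ℤ) < (p : ℤ) ^ m := pow_pos hppos _
    rw [← hdet] at hpm
    exact pos_of_mul_pos_left hpm hnn
  have hge : (p : ℤ) ^ (m - 1) ≤ R.det :=
    Int.le_of_dvd hRpos (pow_dvd_det_of_rank_one R a b hrank)
  obtain ⟨j, hj⟩ : ∃ j, m = j + 1 := by
    refine ⟨m - 1, ?_⟩
    by_contra h
    exact hx (funext fun i => absurd i.2 (by omega))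
  have hplus : R.det * (Cᵀ * C + vecMulVec x x).det * (p : ℤ) =
      (p : ℤ) ^ m * ((p : ℤ) + x ⬝ᵥ (R *ᵥ x)) := by
    rw [← det_mul, mul_add, hRC, mul_vecMulVec, det_natCast_smul_one_add hp0]
  have hkey : (p : ℤ) ^ (m - 1) * (x ⬝ᵥ (R *ᵥ x)) =
      R.det * ((Cᵀ * C + vecMulVec x x).det - (Cᵀ * C).det) := by
    subst hj
    rw [Nat.add_sub_cancel]
    refine mul_right_cancel₀ hp0 ?_
    rw [mul_sub, sub_mul, hplus, hdet, pow_succ]
    ring
  have hpos : (0 : ℤ) < (p : ℤ) ^ (m - 1) := pow_pos hppos _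
  refine le_of_mul_le_mul_left ?_ hpos
  rw [hkey]
  exact le_trans (mul_le_mul_of_nonneg_right hge (by positivity))
    (mul_le_mul_of_nonneg_left hΔ hRpos.le)

/-- An integral basis of the lattice generated by finitely many vectors. -/
theorem exists_basis_data {ι : Type*} [Fintype ι] {W : Type*} [AddCommGroup W] [Module ℂ W]
    (r : ι → W) : ∃ (m : ℕ) (e : Fin m → W) (D : ι → Fin m → ℤ) (Z : Fin m → ι → ℤ),
      (∀ φ, r φ = ∑ i, (D φ i : ℂ) • e i) ∧ (∀ i, e i = ∑ φ, (Z i φ : ℂ) • r φ) ∧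
      ∀ c : Fin m → ℤ, ∑ i, (c i : ℂ) • e i = 0 → c = 0 := by
  classical
  set L := Submodule.span ℤ (Set.range r) with hL
  haveI : Module.IsTorsionFree ℤ W := ⟨fun z hz x y hxy => by
    have hz0 : (z : ℂ) ≠ 0 := Int.cast_ne_zero.2 hz.ne_zero
    have h := congrArg (fun w : W => (z : ℂ)⁻¹ • w) hxy
    simpa only [← Int.cast_smul_eq_zsmul ℂ, inv_smul_smul₀ hz0] using h⟩
  haveI : Module.Finite ℤ L := Module.Finite.span_of_finite ℤ (Set.finite_range r)
  haveI : Module.Free ℤ L := Module.free_of_finite_type_torsion_free'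
  let bas := Module.finBasis ℤ L
  refine ⟨Module.finrank ℤ L, fun i => (bas i : W),
    fun φ i => bas.repr ⟨r φ, Submodule.subset_span ⟨φ, rfl⟩⟩ i, ?_⟩
  have hZ : ∀ i, ∃ z : ι → ℤ, (bas i : W) = ∑ φ, (z φ : ℂ) • r φ := by
    intro i
    obtain ⟨z, hz⟩ := (Submodule.mem_span_range_iff_exists_fun ℤ).1 (bas i).2
    exact ⟨z, by rw [← hz]; exact Finset.sum_congr rfl fun φ _ => (Int.cast_smul_eq_zsmul ℂ _ _).symm⟩
  choose Z hZ using hZ
  refine ⟨Z, fun φ => ?_, hZ, fun c hc => ?_⟩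
  · have h := congrArg Subtype.val (bas.sum_repr ⟨r φ, Submodule.subset_span ⟨φ, rfl⟩⟩)
    simp only [AddSubmonoidClass.coe_finsetSum, SetLike.val_smul] at h
    simp only [Int.cast_smul_eq_zsmul]
    exact h.symm
  · have h : ∑ i, c i • bas i = 0 := by
      apply Subtype.ext
      simp only [AddSubmonoidClass.coe_finsetSum, SetLike.val_smul, ZeroMemClass.coe_zero]
      simpa only [Int.cast_smul_eq_zsmul] using hc
    exact funext fun i => Fintype.linearIndependent_iff.1 bas.linearIndependent c h i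

/-- Two classes give many unequal pairs. -/
theorem two_mul_le_pair_sum {p : ℕ} {X : Type*} (C : Fin p → X) (f : X → X → ℤ) {m : ℤ}
    (h0 : ∀ a b, 0 ≤ f a b) (hm : ∀ a b, a ≠ b → m ≤ f a b)
    {t₀ t₁ : Fin p} (hne : C t₀ ≠ C t₁) :
    2 * ((p : ℤ) - 1) * m ≤ ∑ s, ∑ t, f (C s) (C t) := by
  classical
  have hte : t₀ ≠ t₁ := fun h => hne (by rw [h])
  have hpair : ∀ a : X, m ≤ f a (C t₀) + f a (C t₁) := by
    intro a
    by_cases ha : a = C t₀
    · have := hm a (C t₁) (ha ▸ hne)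
      linarith [h0 a (C t₀)]
    · linarith [hm a _ ha, h0 a (C t₁)]
  have hrow : ∀ s, m ≤ ∑ t, f (C s) (C t) := fun s => by
    calc m ≤ f (C s) (C t₀) + f (C s) (C t₁) := hpair _
      _ = ∑ t ∈ ({t₀, t₁} : Finset (Fin p)), f (C s) (C t) := (Finset.sum_pair (f := fun t => f (C s) (C t)) hte).symm
      _ ≤ _ := Finset.sum_le_sum_of_subset_of_nonneg (Finset.subset_univ _) fun t _ _ => h0 _ _
  have htwo : (p : ℤ) * m ≤ ∑ t, f (C t₀) (C t) + ∑ t, f (C t₁) (C t) := by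
    rw [← Finset.sum_add_distrib]
    have : ∑ _t : Fin p, m = (p : ℤ) * m := by simp
    rw [← this]
    refine Finset.sum_le_sum fun t _ => ?_
    by_cases ht : C t₀ = C t
    · have := hm (C t₁) (C t) (fun h => hne (ht.trans h.symm))
      linarith [h0 (C t₀) (C t)]
    · linarith [hm _ _ ht, h0 (C t₁) (C t)]
  rw [← Finset.sum_add_sum_compl ({t₀, t₁} : Finset (Fin p)), Finset.sum_pair hte]
  have hrest : (((p - 2 : ℕ)) : ℤ) * m ≤
      ∑ s ∈ ({t₀, t₁} : Finset (Fin p))ᶜ, ∑ t, f (C s) (C t) := by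
    have hc : ({t₀, t₁} : Finset (Fin p))ᶜ.card = p - 2 := by
      rw [Finset.card_compl, Fintype.card_fin, Finset.card_pair hte]
    rw [← hc, ← nsmul_eq_mul, ← Finset.sum_const]
    exact Finset.sum_le_sum fun s _ => hrow s
  have h2p : 2 ≤ p := by
    have := Finset.card_le_univ ({t₀, t₁} : Finset (Fin p))
    rwa [Finset.card_pair hte, Fintype.card_fin] at this
  rw [Nat.cast_sub h2p] at hrest
  push_cast at hrest
  linarith

/-- The twisted sum is an integer, at least `(p - 1)` times the least value of the form. -/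
theorem exists_twist_sum {ι : Type*} {p : ℕ} (hp : p.Prime) (s : Finset ι) (ω : ι → ℂ)
    (hω : ∀ φ, ω φ ^ p = 1) (n : ι → ℤ) {m : ℕ} (D : ι → Fin m → ℤ)
    (R : Matrix (Fin m) (Fin m) ℤ) (hform : ∀ x : Fin m → ℤ, x ≠ 0 → (m : ℤ) ≤ x ⬝ᵥ (R *ᵥ x))
    (S : ι → ι → ℤ) (hS : ∀ φ ∈ s, ∀ η ∈ s, S φ η = D φ ⬝ᵥ (R *ᵥ D η))
    (hne : ∑ φ ∈ s, ∑ η ∈ s, ((n φ : ℂ) * (n η : ℂ)) * (S φ η : ℂ) * (ω φ * (ω η)⁻¹) ≠ 0) :
    ∃ z : ℤ, ∑ k ∈ Finset.Ico 1 p, ∑ φ ∈ s, ∑ η ∈ s,
        ((n φ : ℂ) * (n η : ℂ)) * (S φ η : ℂ) * (ω φ ^ k * (ω η)⁻¹ ^ k) = (z : ℂ) ∧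
      ((p : ℤ) - 1) * m ≤ z := by
  classical
  haveI : NeZero p := ⟨hp.ne_zero⟩
  obtain ⟨ζ, hζ⟩ : ∃ ζ : ℂ, IsPrimitiveRoot ζ p := ⟨_, Complex.isPrimitiveRoot_exp p hp.ne_zero⟩
  have hg : ∀ φ, ∃ t : Fin p, ζ ^ (t : ℕ) = ω φ := fun φ => by
    obtain ⟨i, hi, h⟩ := hζ.eq_pow_of_pow_eq_one (hω φ)
    exact ⟨⟨i, hi⟩, h⟩
  choose g hg using hg
  let C : Fin p → Fin m → ℤ := fun t => ∑ φ ∈ s.filter (fun φ => g φ = t), n φ • D φ
  let A : Fin p → Fin p → ℤ := fun t u => C t ⬝ᵥ (R *ᵥ C u)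
  let w : Fin p → Fin p → ℂ := fun t u => ζ ^ (t : ℕ) * (ζ ^ (u : ℕ))⁻¹
  have hsum : ∀ k : ℕ, ∑ φ ∈ s, ∑ η ∈ s,
      ((n φ : ℂ) * (n η : ℂ)) * (S φ η : ℂ) * (ω φ ^ k * (ω η)⁻¹ ^ k) =
      ∑ t, ∑ u, (A t u : ℂ) * w t u ^ k := by
    intro k
    have hA : ∀ t u, (A t u : ℂ) = ∑ φ ∈ s.filter (fun φ => g φ = t),
        ∑ η ∈ s.filter (fun η => g η = u), ((n φ : ℂ) * (n η : ℂ)) * (S φ η : ℂ) := by
      intro t u
      have hz : A t u = ∑ φ ∈ s.filter (fun φ => g φ = t),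
          ∑ η ∈ s.filter (fun η => g η = u), n φ * n η * S φ η := by
        show C t ⬝ᵥ (R *ᵥ C u) = _
        simp only [C]
        rw [sum_dotProduct]
        refine Finset.sum_congr rfl fun φ hφ => ?_
        rw [smul_dotProduct, mulVec_sum, dotProduct_sum, smul_eq_mul, Finset.mul_sum]
        refine Finset.sum_congr rfl fun η hη => ?_
        rw [mulVec_smul, dotProduct_smul, smul_eq_mul,
          hS φ (Finset.mem_filter.1 hφ).1 η (Finset.mem_filter.1 hη).1, mul_assoc]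
      rw [hz]
      push_cast
      rfl
    rw [← Finset.sum_fiberwise s g]
    refine Finset.sum_congr rfl fun t _ => ?_
    simp only [hA, Finset.sum_mul]
    rw [Finset.sum_comm (γ := Fin p)]
    refine Finset.sum_congr rfl fun φ hφ => ?_
    rw [← Finset.sum_fiberwise s g]
    refine Finset.sum_congr rfl fun u _ => Finset.sum_congr rfl fun η hη => ?_
    simp only [w]
    rw [← (Finset.mem_filter.1 hφ).2, ← (Finset.mem_filter.1 hη).2, hg, hg, mul_pow]
  have hgeom : ∀ t u : Fin p, ∑ k ∈ Finset.range p, w t u ^ k = if t = u then (p : ℂ) else 0 := by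
    intro t u
    have hz : ∀ i : ℕ, ζ ^ i ≠ 0 := fun i => pow_ne_zero _ (hζ.ne_zero hp.ne_zero)
    split_ifs with h
    · subst h
      simp [w, hz]
    · have hne1 : w t u ≠ 1 := by
        intro h1
        refine h (Fin.ext (hζ.pow_inj t.2 u.2 ?_))
        exact (mul_inv_eq_one₀ (hz _)).1 h1
      rw [geom_sum_eq hne1]
      have hwp : w t u ^ p = 1 := by
        simp only [w]
        rw [mul_pow, inv_pow, ← pow_mul, ← pow_mul, mul_comm (t : ℕ), mul_comm (u : ℕ), pow_mul,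
          pow_mul, hζ.pow_eq_one, one_pow, one_pow, inv_one, mul_one]
      rw [hwp, sub_self, zero_div]
  have hnc : ∃ t₀ t₁, C t₀ ≠ C t₁ := by
    by_contra hc
    push Not at hc
    apply hne
    have h := hsum 1
    simp only [pow_one] at h
    rw [h]
    have hA0 : ∀ t u, A t u = A ⟨0, hp.pos⟩ ⟨0, hp.pos⟩ := fun t u => by
      simp only [A, hc t ⟨0, hp.pos⟩, hc u ⟨0, hp.pos⟩]
    have hz : ∑ t : Fin p, ζ ^ (t : ℕ) = 0 := by
      rw [Fin.sum_univ_eq_sum_range (fun i => ζ ^ i)]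
      exact hζ.geom_sum_eq_zero hp.one_lt
    simp only [hA0, w, ← Finset.mul_sum]
    rw [← Finset.sum_mul, hz, zero_mul, mul_zero]
  obtain ⟨t₀, t₁, hne'⟩ := hnc
  refine ⟨(p : ℤ) * ∑ t, A t t - ∑ t, ∑ u, A t u, ?_, ?_⟩
  · simp only [hsum]
    have hR := Finset.sum_range_eq_add_Ico (fun k => ∑ t, ∑ u, (A t u : ℂ) * w t u ^ k) hp.pos
    simp only [pow_zero, mul_one] at hR
    have hl : ∑ k ∈ Finset.range p, ∑ t, ∑ u, (A t u : ℂ) * w t u ^ k =
        ∑ t, (p : ℂ) * (A t t : ℂ) := by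
      rw [Finset.sum_comm]
      refine Finset.sum_congr rfl fun t _ => ?_
      rw [Finset.sum_comm]
      simp only [← Finset.mul_sum, hgeom, mul_ite, mul_zero, Finset.sum_ite_eq, Finset.mem_univ,
        if_true]
      exact mul_comm _ _
    rw [hl] at hR
    push_cast
    rw [Finset.mul_sum, eq_sub_iff_add_eq, add_comm, ← hR]
  · let f : (Fin m → ℤ) → (Fin m → ℤ) → ℤ := fun a b => (a - b) ⬝ᵥ (R *ᵥ (a - b))
    have hf0 : ∀ a b, 0 ≤ f a b := fun a b => by
      by_cases h : a - b = 0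
      · simp [f, h]
      · exact le_trans (Int.natCast_nonneg m) (hform _ h)
    have h := two_mul_le_pair_sum C f hf0
      (fun a b hab => hform _ (sub_ne_zero.2 hab)) hne'
    have hexp : ∑ t, ∑ u, f (C t) (C u) =
        2 * ((p : ℤ) * ∑ t, A t t - ∑ t, ∑ u, A t u) := by
      simp only [f, mulVec_sub, sub_dotProduct, dotProduct_sub, Finset.sum_sub_distrib]
      rw [Finset.sum_comm (f := fun t u => C u ⬝ᵥ R *ᵥ C t)]
      simp only [Finset.sum_const, Finset.card_univ, Fintype.card_fin, nsmul_eq_mul, A,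
        ← Finset.mul_sum]
      ring
    linarith

end Cfsg.Agent.H20.BrauerFeit
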