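import Cfsg.Agent.H20.BrauerFeit.Quotient
import Cfsg.Agent.H20.BrauerFeit.Lattice
import Cfsg.Agent.H32.Contributions

/-!
# The form of a block of defect two with a normal central subgroup of order `p`
-/

set_option autoImplicit false
set_option linter.unusedSectionVars false

open scoped ComplexConjugate
open Matrix

namespace Cfsg.Agent.H20.BrauerFeit

open Cfsg.Agent.H44 (inflate)
open Cfsg.Agent.H42 (regRes regInt)
open Cfsg.Agent.H40 (quotSet)
open Cfsg.Agent.H32 (scaledReg scaledDeg)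

variable {C : Type*} [Group C] [Fintype C] {p : ℕ} [hp : Fact p.Prime] {Q : Subgroup C} [Q.Normal]
  {M : Ideal Cfsg.AlgInt} {b : Set (Cfsg.IrrCharacter C)}

/-- Regular parts see only regular parts. -/
theorem classInner_regRes_regRes (φ η : Cfsg.IrrCharacter C) :
    Cfsg.classInner (regRes p (φ : C → ℂ)) (regRes p (η : C → ℂ)) =
      Cfsg.classInner (regRes p (φ : C → ℂ)) (η : C → ℂ) := by
  simp only [Cfsg.classInner]
  congr 1
  refine Finset.sum_congr rfl fun x _ => ?_
  by_cases hx : p ∣ orderOf x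
  · simp [H42.regRes_of_singular hx]
  · rw [H42.regRes_of_regular (χ := (η : C → ℂ)) hx]

/-- The scaled entries are `p ^ d` times inner products. -/
theorem cast_scaledReg_eq (hM : Cfsg.IsPModular p M) (hb : Cfsg.IsPBlock M b)
    {φ : Cfsg.IrrCharacter C} (hφ : φ ∈ b) (η : Cfsg.IrrCharacter C) :
    (scaledReg p b φ η : ℂ) = (p : ℂ) ^ Cfsg.blockDefect p b *
      Cfsg.classInner (regRes p (φ : C → ℂ)) (regRes p (η : C → ℂ)) := by
  have := hM.2.1
  have hva : H32.minVal p b + Cfsg.blockDefect p b = (Nat.card C).factorization p := by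
    obtain ⟨ξ, hξ, hξ0⟩ := H41.exists_height_zero (p := p) (H41.IsPBlock.nonempty hb)
    have := (H42.blockHeight_eq_zero_iff (p := p) hb hξ).1 hξ0
    rwa [H41.factorization_eq_of_height_zero hξ hξ0] at this
  have hspec := H42.regInt_spec p φ η
  rw [← H32.cast_scaledReg (F := ℂ) hφ η, Nat.cast_pow, ← hva, pow_add] at hspec
  rw [classInner_regRes_regRes]
  exact mul_right_cancel₀ (pow_ne_zero (H32.minVal p b) (Nat.cast_ne_zero.2 hp.out.ne_zero))
    (by rw [hspec]; ring)

open scoped Classical in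
/-- The regular part of a member below, expanded by the inner products above. -/
theorem regRes_inflate_eq_sum [Fintype (C ⧸ Q)] (hM : Cfsg.IsPModular p M)
    (hb : Cfsg.IsPBlock M b) (hQ : IsPGroup p Q)
    (hsup : Q ⊔ Subgroup.centralizer (Q : Set C) = ⊤) {φ : Cfsg.IrrCharacter (C ⧸ Q)}
    (hφ : φ ∈ quotSet Q b) :
    regRes p (inflate Q φ : C → ℂ) = ∑ η ∈ H42.blockFinset (quotSet Q b),
      ((Nat.card Q : ℂ) * Cfsg.classInner (regRes p (inflate Q φ : C → ℂ))
        (regRes p (inflate Q η : C → ℂ))) • regRes p (inflate Q η : C → ℂ) := by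
  have hqb := isPBlock_quotSet hM hb hQ hsup
  funext g
  simp only [Finset.sum_apply, Pi.smul_apply, smul_eq_mul]
  by_cases hg : p ∣ orderOf g
  · simp [H42.regRes_of_singular hg]
  · have hgq : ¬ p ∣ orderOf (g : C ⧸ Q) := fun h => hg (h.trans (H40.orderOf_mk_dvd g))
    rw [H42.regRes_of_regular hg, H44.inflate_apply,
      ← H42.regRes_of_regular (χ := (φ : C ⧸ Q → ℂ)) hgq, H42.regRes_eq_sum_block hM hqb hφ]
    refine Finset.sum_congr rfl fun η _ => ?_
    rw [classInner_regRes_regRes, classInner_regRes_inflate hQ hsup, H42.classInner_regRes_eq,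
      H42.regRes_of_regular hg, H44.inflate_apply]

open scoped Classical in
/-- The lattice of regular parts of a block of defect two. -/
theorem exists_form_data (hM : Cfsg.IsPModular p M) (hb : Cfsg.IsPBlock M b)
    (hd : Cfsg.blockDefect p b = 2) (hQc : Nat.card Q = p)
    (hsup : Q ⊔ Subgroup.centralizer (Q : Set C) = ⊤) :
    ∃ (m : ℕ) (D : Cfsg.IrrCharacter C → Fin m → ℤ) (R : Matrix (Fin m) (Fin m) ℤ),
      (∀ φ ∈ b, ∀ η ∈ b, scaledReg p b φ η = D φ ⬝ᵥ (R *ᵥ D η)) ∧
      (∀ x : Fin m → ℤ, x ≠ 0 → (m : ℤ) ≤ x ⬝ᵥ (R *ᵥ x)) ∧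
      Cfsg.blockRank p b ≤ m := by
  have := hM.2.1
  have hp0 : (p : ℂ) ≠ 0 := Nat.cast_ne_zero.2 hp.out.ne_zero
  have : Fintype (C ⧸ Q) := Fintype.ofFinite _
  have hQ : IsPGroup p Q := IsPGroup.of_card (n := 1) (by rw [hQc, pow_one])
  set s := H42.blockFinset b with hs
  obtain ⟨m, e, D, Z, hD, hZ, hind⟩ :=
    exists_basis_data (fun φ : ↥s => regRes p (φ.1 : C → ℂ))
  have hmem : ∀ φ : ↥s, φ.1 ∈ b := fun φ => H42.mem_blockFinset.1 φ.2
  let D' : Cfsg.IrrCharacter C → Fin m → ℤ := fun φ => if h : φ ∈ s then D ⟨φ, h⟩ else 0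
  let R : Matrix (Fin m) (Fin m) ℤ :=
    Matrix.of fun i j => ∑ φ : ↥s, ∑ η : ↥s, Z i φ * Z j η * scaledReg p b φ.1 η.1
  have hR : ∀ i j, (R i j : ℂ) = (p : ℂ) ^ 2 * Cfsg.classInner (e i) (e j) := by
    intro i j
    rw [hZ i, hZ j, H26.classInner_sum_left, Finset.mul_sum]
    simp only [R, Matrix.of_apply, Int.cast_sum]
    refine Finset.sum_congr rfl fun φ _ => ?_
    rw [H26.classInner_smul_left, H26.classInner_sum_right, Finset.mul_sum, Finset.mul_sum]
    refine Finset.sum_congr rfl fun η _ => ?_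
    rw [H26.classInner_smul_right, map_intCast, Int.cast_mul, Int.cast_mul,
      cast_scaledReg_eq hM hb (hmem φ), hd]
    ring
  have hS : ∀ φ η : ↥s, scaledReg p b φ.1 η.1 = D φ ⬝ᵥ (R *ᵥ D η) := by
    intro φ η
    apply Int.cast_injective (α := ℂ)
    rw [cast_scaledReg_eq hM hb (hmem φ), hd, hD φ, hD η, H26.classInner_sum_left, Finset.mul_sum]
    simp only [dotProduct, Matrix.mulVec, Finset.mul_sum, Int.cast_sum, Int.cast_mul]
    refine Finset.sum_congr rfl fun i _ => ?_
    rw [H26.classInner_smul_left, H26.classInner_sum_right, Finset.mul_sum, Finset.mul_sum]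
    refine Finset.sum_congr rfl fun j _ => ?_
    rw [H26.classInner_smul_right, map_intCast, hR]
    ring
  refine ⟨m, D', R, fun φ hφ η hη => ?_, ?_, ?_⟩
  · simp only [D', dif_pos (show φ ∈ s from H42.mem_blockFinset.2 hφ),
      dif_pos (show η ∈ s from H42.mem_blockFinset.2 hη)]
    exact hS ⟨φ, _⟩ ⟨η, _⟩
  swap
  · -- the rank
    have hle : Submodule.span ℂ ((fun χ : Cfsg.IrrCharacter C =>
        Cfsg.pRegularPart p (χ : C → ℂ)) '' b) ≤ Submodule.span ℂ (Set.range e) := by
      rw [Submodule.span_le]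
      rintro _ ⟨χ, hχ, rfl⟩
      show Cfsg.pRegularPart p (χ : C → ℂ) ∈ _
      rw [H42.pRegularPart_eq_regRes]
      refine (hD ⟨χ, H42.mem_blockFinset.2 hχ⟩).symm ▸ ?_
      exact Submodule.sum_mem _ fun i _ =>
        Submodule.smul_mem _ _ (Submodule.subset_span ⟨i, rfl⟩)
    refine (Submodule.finrank_mono hle).trans ?_
    exact (finrank_range_le_card e).trans_eq (Fintype.card_fin m)
  -- the members below
  set B₁ := quotSet Q b with hB₁
  set t := H42.blockFinset B₁ with ht
  have hqb : Cfsg.IsPBlock M B₁ := isPBlock_quotSet hM hb hQ hsup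
  have hqd : Cfsg.blockDefect p B₁ = 1 := by
    have := blockDefect_quotSet hM hb hQ hsup (j := 1) (by rw [hQc, pow_one])
    rw [hd] at this
    exact Nat.succ_injective this
  let up : ↥t → ↥s := fun φ =>
    ⟨inflate Q φ.1, H42.mem_blockFinset.2 ((H42.mem_blockFinset (B := B₁)).1 φ.2)⟩
  let Cm : Matrix ↥t (Fin m) ℤ := Matrix.of fun φ i => D (up φ) i
  set r : ↥t → C → ℂ := fun φ => regRes p (inflate Q φ.1 : C → ℂ) with hr
  have hrD : ∀ φ : ↥t, r φ = ∑ i, (Cm φ i : ℂ) • e i := fun φ => hD (up φ)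
  -- expansion of the span
  have hexp : ∀ f ∈ Submodule.span ℂ (Set.range r),
      f = ∑ η : ↥t, ((p : ℂ) * Cfsg.classInner f (r η)) • r η := by
    intro f hf
    induction hf using Submodule.span_induction with
    | mem x hx =>
      obtain ⟨φ, rfl⟩ := hx
      refine (regRes_inflate_eq_sum hM hb hQ hsup (H42.mem_blockFinset.1 φ.2)).trans ?_
      rw [← Finset.sum_coe_sort, hQc]
    | zero => simp [H26.classInner_zero_left]
    | add x y _ _ hx hy =>
      simp only [H26.classInner_add_left, mul_add, add_smul, Finset.sum_add_distrib, ← hx, ← hy]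
    | smul c x _ hx =>
      conv_lhs => rw [hx, Finset.smul_sum]
      refine Finset.sum_congr rfl fun η _ => ?_
      rw [H26.classInner_smul_left, smul_smul]
      congr 1
      ring
  have hespan : ∀ i, e i ∈ Submodule.span ℂ (Set.range r) := by
    intro i
    rw [hZ i]
    refine Submodule.sum_mem _ fun φ _ => Submodule.smul_mem _ _ ?_
    refine Submodule.span_mono ?_ (regRes_mem_span_quot hM hb hQ hsup (hmem φ))
    rintro _ ⟨η, hη, rfl⟩
    exact ⟨⟨η, H42.mem_blockFinset.2 hη⟩, rfl⟩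
  have hRC : R * (Cmᵀ * Cm) = (p : ℤ) • (1 : Matrix (Fin m) (Fin m) ℤ) := by
    ext i j
    have hi : ∑ l, ((R * (Cmᵀ * Cm)) i l : ℂ) • e l = (p : ℂ) • e i := by
      conv_rhs => rw [hexp _ (hespan i), Finset.smul_sum]
      rw [show ∑ l, ((R * (Cmᵀ * Cm)) i l : ℂ) • e l =
          ∑ η : ↥t, (∑ l, (R i l : ℂ) * (Cm η l : ℂ)) • r η by
        simp only [hrD, Finset.smul_sum, smul_smul]
        conv_rhs => rw [Finset.sum_comm]
        refine Finset.sum_congr rfl fun k _ => ?_
        rw [← Finset.sum_smul]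
        congr 1
        simp only [Matrix.mul_apply, Matrix.transpose_apply, Int.cast_sum, Int.cast_mul,
          Finset.mul_sum, Finset.sum_mul]
        rw [Finset.sum_comm]
        exact Finset.sum_congr rfl fun η _ => Finset.sum_congr rfl fun l _ => (mul_assoc _ _ _).symm]
      refine Finset.sum_congr rfl fun η _ => ?_
      rw [smul_smul]
      congr 1
      rw [hrD η, H26.classInner_sum_right, Finset.mul_sum, Finset.mul_sum]
      refine Finset.sum_congr rfl fun l _ => ?_
      rw [H26.classInner_smul_right, map_intCast, hR]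
      ring
    have h0 := hind (fun l => (R * (Cmᵀ * Cm)) i l - (p : ℤ) * (if i = l then 1 else 0)) (by
      simp only [Int.cast_sub, sub_smul, Finset.sum_sub_distrib, hi, Int.cast_mul, Int.cast_natCast,
        Int.cast_ite, Int.cast_one, Int.cast_zero, mul_ite, mul_one, mul_zero, ite_smul, zero_smul,
        Finset.sum_ite_eq, Finset.mem_univ, if_true, sub_self])
    have h := congrFun h0 j
    simp only [Pi.zero_apply, sub_eq_zero] at h
    rw [h, Matrix.smul_apply, Matrix.one_apply, smul_eq_mul]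
  -- rank one modulo `p`
  obtain ⟨ξ, hξ, hξ0⟩ := H41.exists_height_zero (p := p) (H41.IsPBlock.nonempty hb)
  obtain ⟨u, v, huv⟩ : IsCoprime (scaledDeg p b ξ) (p : ℤ) :=
    ((Nat.prime_iff_prime_int.1 hp.out).coprime_iff_not_dvd.2
      (H32.not_dvd_scaledDeg hξ hξ0)).symm
  let a : Fin m → ℤ := fun i =>
    u * u * scaledReg p b ξ ξ * ∑ φ : ↥s, Z i φ * scaledDeg p b φ.1
  let b' : Fin m → ℤ := fun j => ∑ η : ↥s, Z j η * scaledDeg p b η.1
  have hrank : ∀ i j, (p : ℤ) ∣ R i j - a i * b' j := by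
    intro i j
    simp only [R, a, b', Matrix.of_apply]
    rw [mul_assoc, Finset.sum_mul_sum, Finset.mul_sum, ← Finset.sum_sub_distrib]
    refine Finset.dvd_sum fun φ _ => ?_
    rw [Finset.mul_sum, ← Finset.sum_sub_distrib]
    refine Finset.dvd_sum fun η _ => ?_
    have h1 := (H32.dvd_scaledReg_rank_one hM hb (hmem φ) (hmem η) hξ).mul_left
      (u * u * (Z i φ * Z j η))
    have h2 : (p : ℤ) ∣ Z i φ * Z j η * scaledReg p b φ.1 η.1 *
        (1 - u * scaledDeg p b ξ) * (1 + u * scaledDeg p b ξ) := by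
      refine Dvd.dvd.mul_right (dvd_mul_of_dvd_right ⟨v, ?_⟩ _) _
      rw [mul_comm (p : ℤ)]
      linarith
    refine (dvd_add h1 h2).trans (dvd_of_eq ?_)
    ring
  -- no row is needed
  have hco : ∀ (η₀ : ↥t) (w : Fin m → ℚ),
      (∀ η, η ≠ η₀ → ∑ j, (Cm η j : ℚ) * w j = 0) → w = 0 := by
    intro η₀ w hw
    set c := ∑ j, (Cm η₀ j : ℚ) * w j with hc
    have hp' : (p : ℚ) ≠ 0 := Nat.cast_ne_zero.2 hp.out.ne_zero
    have hCw : Cm.map (Int.castRingHom ℚ) *ᵥ w = Pi.single η₀ c := funext fun η => by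
      simp only [Matrix.mulVec, dotProduct, Matrix.map_apply, eq_intCast]
      by_cases h : η = η₀
      · subst h; simp [hc]
      · rw [hw η h, Pi.single_eq_of_ne h]
    have hpw : ∀ i, (p : ℚ) * w i = c * ((R *ᵥ Cm η₀) i : ℚ) := by
      intro i
      have h := congrArg (fun A => (A.map (Int.castRingHom ℚ)) *ᵥ w) hRC
      simp only [Matrix.map_mul, ← Matrix.mulVec_mulVec, hCw, Matrix.mulVec_single] at h
      have h' := congrFun h i
      simp only [Matrix.mulVec, dotProduct, Matrix.map_apply, Matrix.smul_apply, Matrix.one_apply,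
        Matrix.transpose_apply, eq_intCast, smul_eq_mul, Int.cast_mul, Int.cast_natCast,
        Int.cast_ite, Int.cast_one, Int.cast_zero, mul_ite, mul_one, mul_zero, ite_mul, zero_mul,
        Finset.sum_ite_eq, Finset.mem_univ, if_true, Pi.smul_apply, op_smul_eq_mul,
        Matrix.col_apply, Int.cast_sum] at h' ⊢
      rw [← h', Finset.mul_sum]
      exact Finset.sum_congr rfl fun l _ => by ring
    by_contra hw0
    have hc0 : c ≠ 0 := fun h => hw0 (funext fun i => by
      have := hpw i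
      rw [h, zero_mul, mul_eq_zero] at this
      exact this.resolve_left hp')
    have hentry : ∀ η : ↥t, (p : ℚ) * ∑ j, (Cm η j : ℚ) * w j =
        c * (scaledReg p b (inflate Q η.1) (inflate Q η₀.1) : ℚ) := by
      intro η
      have hsc : scaledReg p b (inflate Q η.1) (inflate Q η₀.1) = Cm η ⬝ᵥ (R *ᵥ Cm η₀) :=
        hS (up η) (up η₀)
      rw [hsc, dotProduct, Int.cast_sum, Finset.mul_sum, Finset.mul_sum]
      refine Finset.sum_congr rfl fun j _ => ?_
      rw [Int.cast_mul]
      linear_combination (Cm η j : ℚ) * hpw j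
    -- the entries below
    have hbar : ∀ η : ↥t, (regInt p η.1 η₀.1 : ℂ) * (p : ℂ) =
        (p : ℂ) ^ (Nat.card (C ⧸ Q)).factorization p *
          (scaledReg p b (inflate Q η.1) (inflate Q η₀.1) : ℂ) := by
      intro η
      rw [H42.regInt_spec p η.1 η₀.1, ← classInner_regRes_inflate hQ hsup, hQc,
        cast_scaledReg_eq hM hb ((H42.mem_blockFinset (B := B₁)).1 η.2 : inflate Q η.1 ∈ b), hd,
        classInner_regRes_regRes]
      push_cast
      ring
    have hzero : ∀ η : ↥t, η ≠ η₀ → regInt p η.1 η₀.1 = 0 := by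
      intro η hη
      have h := hentry η
      rw [hw η hη, mul_zero, eq_comm, mul_eq_zero, Int.cast_eq_zero] at h
      have h2 := hbar η
      rw [h.resolve_left hc0, Int.cast_zero, mul_zero, mul_eq_zero, Int.cast_eq_zero] at h2
      exact h2.resolve_right hp0
    have hdiag : regInt p η₀.1 η₀.1 = (p : ℤ) ^ (Nat.card (C ⧸ Q)).factorization p := by
      have h := hentry η₀
      rw [← hc, mul_comm] at h
      have h1 : scaledReg p b (inflate Q η₀.1) (inflate Q η₀.1) = (p : ℤ) := by
        have := mul_left_cancel₀ hc0 h.symm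
        exact_mod_cast this
      have h2 := hbar η₀
      rw [h1] at h2
      push_cast at h2
      exact Int.cast_injective (α := ℂ) (by push_cast; exact mul_right_cancel₀ hp0 h2)
    obtain ⟨ψ, hψ, hψ0, hψv⟩ := H42.exists_height_zero (p := p) hqb
    have hrow := H42.not_pow_succ_dvd_regInt hM hqb hψ hψ0 (H42.mem_blockFinset.1 η₀.2)
    by_cases hψη : ψ = η₀.1
    · subst hψη
      rw [hdiag] at hrow
      exact hrow (pow_dvd_pow _ (by omega))
    · refine hrow ?_
      rw [hzero ⟨ψ, H42.mem_blockFinset.2 hψ⟩ fun h => hψη (congrArg Subtype.val h)]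
      exact dvd_zero _
  exact fun x hx => le_form_of_data hp.out.pos R Cm hRC a b' hrank hco hx

end Cfsg.Agent.H20.BrauerFeit
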