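import Cfsg.Agent.H40.CentralQuotient
import Cfsg.Agent.H40.QuotientBlocks

/-!
# The block of `G / Q` inside a block of `G`, for a normal `p`-subgroup `Q` with `G = Q C(Q)`
-/

set_option autoImplicit false
set_option linter.unusedSectionVars false

open scoped ComplexConjugate

namespace Cfsg.Agent.H20.BrauerFeit

open Cfsg
open Cfsg.Agent.H44 (inflate)
open Cfsg.Agent.H42 (regRes)
open Cfsg.Agent.H40 (quotSet)

variable {G : Type*} [Group G] [Fintype G] {p : ℕ} [hp : Fact p.Prime] {Q : Subgroup G} [Q.Normal]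
  {M : Ideal Cfsg.AlgInt} {B : Set (Cfsg.IrrCharacter G)}

/-- The inflation is a member exactly when the character lies in the set below. -/
theorem mem_quotSet {φ : Cfsg.IrrCharacter (G ⧸ Q)} :
    φ ∈ quotSet Q B ↔ inflate Q φ ∈ B := Iff.rfl

/-- The set below a block is a block. -/
theorem isPBlock_quotSet (hM : Cfsg.IsPModular p M) (hB : Cfsg.IsPBlock M B) (hQ : IsPGroup p Q)
    (hsup : Q ⊔ Subgroup.centralizer (Q : Set G) = ⊤) : Cfsg.IsPBlock M (quotSet Q B) := by
  have := hM.2.1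
  obtain ⟨Bbar, hBbar, hsub, -⟩ := H40.exists_quotient_block Q hM hQ hB
  obtain ⟨φ, hφ⟩ := H41.IsPBlock.nonempty hBbar
  suffices h : quotSet Q B = Bbar from h ▸ hBbar
  refine Set.Subset.antisymm (fun ψ hψ => ?_) hsub
  rw [H41.eq_blockOf_of_mem hBbar hφ]
  show Cfsg.SameBlock M (φ : G ⧸ Q → ℂ) (ψ : G ⧸ Q → ℂ)
  exact (H40.sameBlock_inflate_iff hM hQ hsup φ ψ).1
    (H41.sameBlock_of_mem hB (hsub hφ) hψ)

/-- The defect drops by the order of `Q`. -/
theorem blockDefect_quotSet (hM : Cfsg.IsPModular p M) (hB : Cfsg.IsPBlock M B) (hQ : IsPGroup p Q)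
    (hsup : Q ⊔ Subgroup.centralizer (Q : Set G) = ⊤) {j : ℕ} (hj : Nat.card Q = p ^ j) :
    Cfsg.blockDefect p (quotSet Q B) + j = Cfsg.blockDefect p B := by
  classical
  have := hM.2.1
  obtain ⟨Bbar, hBbar, hsub, hdef⟩ := H40.exists_quotient_block Q hM hQ hB
  have hqb := isPBlock_quotSet hM hB hQ hsup
  have hEq : Bbar = quotSet Q B := by
    obtain ⟨φ, hφ⟩ := H41.IsPBlock.nonempty hBbar
    exact H41.block_eq_of_mem_of_mem hBbar hqb hφ (hsub hφ)
  subst hEq
  obtain ⟨P, hP⟩ := H40.exists_isDefectGroup hM hB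
  have hQP : Q ≤ P := H40.normal_le_defectGroup hM hB hP hQ
  have hD := (hdef _).2 ⟨P, hP, rfl⟩
  have h1 := H40.card_defectGroup hM hqb hD
  have h2 := H40.card_defectGroup hM hB hP
  have h3 := Subgroup.card_mul_index (Q.subgroupOf P)
  rw [Nat.card_congr (Subgroup.subgroupOfEquivOfLe hQP).toEquiv, hj, h2] at h3
  have h4 : (Q.subgroupOf P).index = Nat.card (P.map (QuotientGroup.mk' Q)) := by
    rw [← Subgroup.relIndex, ← Subgroup.map_comap_eq_self_of_surjective
      (QuotientGroup.mk'_surjective Q) (P.map (QuotientGroup.mk' Q)),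
      Subgroup.comap_map_eq_self (by rwa [QuotientGroup.ker_mk'])]
    have := Subgroup.card_mul_index ((QuotientGroup.mk' Q).subgroupMap P).ker
    rw [Subgroup.index_ker, MonoidHom.range_eq_top.2 ((QuotientGroup.mk' Q).subgroupMap_surjective P),
      Subgroup.card_top] at this
    have hk : ((QuotientGroup.mk' Q).subgroupMap P).ker = Q.subgroupOf P := by
      ext x
      rw [MonoidHom.mem_ker, Subgroup.mem_subgroupOf, ← QuotientGroup.eq_one_iff, Subtype.ext_iff]
      rfl
    have h5 := Subgroup.card_mul_index (Q.subgroupOf P)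
    rw [hk] at this
    exact Nat.eq_of_mul_eq_mul_left Nat.card_pos (h5.trans this.symm)
  rw [h4, h1, ← pow_add, add_comm] at h3
  exact Nat.pow_right_injective hp.out.two_le h3

/-- The regular parts of the inflated members span those of the block. -/
theorem regRes_mem_span_quot (hM : Cfsg.IsPModular p M) (hB : Cfsg.IsPBlock M B)
    (hQ : IsPGroup p Q) (hsup : Q ⊔ Subgroup.centralizer (Q : Set G) = ⊤)
    {χ : Cfsg.IrrCharacter G} (hχ : χ ∈ B) :
    regRes p (χ : G → ℂ) ∈ Submodule.span ℂ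
      ((fun φ : Cfsg.IrrCharacter (G ⧸ Q) => regRes p (inflate Q φ : G → ℂ)) '' quotSet Q B) := by
  classical
  have := hM.2.1
  have : Fintype (G ⧸ Q) := Fintype.ofFinite _
  have hreg : ∀ g : G, ¬ p ∣ orderOf g → ¬ p ∣ orderOf (g : G ⧸ Q) :=
    fun g hg h => hg (h.trans (H40.orderOf_mk_dvd g))
  have hlift : ∀ q : G ⧸ Q, ∃ g : G, (g : G ⧸ Q) = q ∧ (¬ p ∣ orderOf q → ¬ p ∣ orderOf g) := by
    intro q
    by_cases hq : p ∣ orderOf q
    · obtain ⟨g, rfl⟩ := QuotientGroup.mk_surjective q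
      exact ⟨g, rfl, fun h => absurd hq h⟩
    · obtain ⟨g, hg, hgq⟩ := H40.exists_regular_lift hQ hq
      exact ⟨g, hgq, fun _ => hg⟩
  choose r hr hrreg using hlift
  let f : G ⧸ Q → ℂ := fun q => if p ∣ orderOf q then 0 else (χ : G → ℂ) (r q)
  have hcl : Cfsg.IsClassFunction (G ⧸ Q) f := by
    intro q z
    have ho : orderOf (z * q * z⁻¹) = orderOf q := by
      rw [← MulAut.conj_apply, MulEquiv.orderOf_eq]
    simp only [f, ho]
    split_ifs with hq
    · rfl
    · refine H26.irr_eq_of_isConj χ (isConj_iff.2 ⟨(r z)⁻¹, ?_⟩)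
      refine H40.regular_lift_unique hQ hsup ?_ (hrreg q hq) ?_
      · rw [show (r z)⁻¹ * r (z * q * z⁻¹) * (r z)⁻¹⁻¹ =
          MulAut.conj (r z)⁻¹ (r (z * q * z⁻¹)) from rfl, MulEquiv.orderOf_eq]
        exact hrreg _ (by rwa [ho])
      · simp only [QuotientGroup.mk_mul, QuotientGroup.mk_inv, hr]
        group
  have hf : ∀ g : G, ¬ p ∣ orderOf g → f (g : G ⧸ Q) = (χ : G → ℂ) g := by
    intro g hg
    simp only [f, if_neg (hreg g hg)]
    rw [H40.regular_lift_unique hQ hsup (hrreg _ (hreg g hg)) hg (hr _)]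
  have hcoef : ∀ φ : Cfsg.IrrCharacter (G ⧸ Q), φ ∉ quotSet Q B →
      Cfsg.classInner f (φ : G ⧸ Q → ℂ) = 0 := by
    intro φ hφ
    have h0 : Cfsg.classInner (regRes p (χ : G → ℂ)) (inflate Q φ : G → ℂ) = 0 := by
      rw [H42.classInner_regRes_eq, H42.regInt_eq_zero_of_notMem hM hB hχ hφ, Int.cast_zero,
        zero_div]
    rw [Cfsg.classInner] at h0 ⊢
    refine mul_eq_zero_of_right _ ?_
    rw [mul_eq_zero] at h0
    have h1 := h0.resolve_left (inv_ne_zero (Nat.cast_ne_zero.2 Nat.card_pos.ne'))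
    rw [← h1]
    refine Finset.sum_bij_ne_zero (fun q _ _ => r q) (fun _ _ _ => Finset.mem_univ _)
      (fun a _ _ b _ _ h => by rw [← hr a, h, hr b]) (fun g _ hg => ?_) fun q _ hq => ?_
    · have hgr : ¬ p ∣ orderOf g := fun h => hg (by simp [H42.regRes_of_singular h])
      have hrg := H40.regular_lift_unique hQ hsup (hrreg _ (hreg g hgr)) hgr (hr _)
      refine ⟨(g : G ⧸ Q), Finset.mem_univ _, ?_, hrg⟩
      rw [hf g hgr]
      rwa [H42.regRes_of_regular hgr, H44.inflate_apply] at hg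
    · have hqr : ¬ p ∣ orderOf q := fun h => hq (by simp [f, h])
      rw [H42.regRes_of_regular (hrreg q hqr), H44.inflate_apply, hr]
      simp [f, hqr]
  have hexp : regRes p (χ : G → ℂ) = ∑ φ : Cfsg.IrrCharacter (G ⧸ Q),
      Cfsg.classInner f (φ : G ⧸ Q → ℂ) • regRes p (inflate Q φ : G → ℂ) := funext fun g => by
    simp only [Finset.sum_apply, Pi.smul_apply, smul_eq_mul]
    by_cases hg : p ∣ orderOf g
    · simp [H42.regRes_of_singular hg]
    · rw [H42.regRes_of_regular hg, ← hf g hg]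
      conv_lhs => rw [H26.class_function_expansion f hcl]
      simp [Finset.sum_apply, H42.regRes_of_regular hg, H44.inflate_apply]
  rw [hexp]
  refine Submodule.sum_mem _ fun φ _ => ?_
  by_cases hφ : φ ∈ quotSet Q B
  · exact Submodule.smul_mem _ _ (Submodule.subset_span ⟨φ, hφ, rfl⟩)
  · rw [hcoef φ hφ, zero_smul]; exact zero_mem _

/-- The rank is at most the number of members below. -/
theorem blockRank_le_card_quot (hM : Cfsg.IsPModular p M) (hB : Cfsg.IsPBlock M B)
    (hQ : IsPGroup p Q) (hsup : Q ⊔ Subgroup.centralizer (Q : Set G) = ⊤) :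
    Cfsg.blockRank p B ≤ Nat.card (quotSet Q B) := by
  classical
  have := hM.2.1
  have := Cfsg.Agent.H41.finite_irrCharacter (G := G ⧸ Q)
  have : Fintype (Cfsg.IrrCharacter (G ⧸ Q)) := Fintype.ofFinite _
  set s : Finset (G → ℂ) := ((Finset.univ.filter (· ∈ quotSet Q B)).image
    fun φ : Cfsg.IrrCharacter (G ⧸ Q) => regRes p (inflate Q φ : G → ℂ)) with hs
  have hle : Submodule.span ℂ ((fun χ : Cfsg.IrrCharacter G =>
      Cfsg.pRegularPart p (χ : G → ℂ)) '' B) ≤ Submodule.span ℂ (s : Set (G → ℂ)) := by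
    rw [Submodule.span_le]
    rintro _ ⟨χ, hχ, rfl⟩
    show Cfsg.pRegularPart p (χ : G → ℂ) ∈ _
    rw [H42.pRegularPart_eq_regRes]
    refine (Submodule.span_mono ?_) (regRes_mem_span_quot hM hB hQ hsup hχ)
    rintro _ ⟨φ, hφ, rfl⟩
    simp only [hs, Finset.coe_image, Set.mem_image]
    exact ⟨φ, by simpa using hφ, rfl⟩
  refine (Submodule.finrank_mono hle).trans ((finrank_span_finset_le_card s).trans ?_)
  rw [hs]
  refine Finset.card_image_le.trans (le_of_eq ?_)
  rw [Nat.card_eq_fintype_card, Fintype.card_subtype]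

/-- The inner product below. -/
theorem classInner_regRes_inflate [Fintype (G ⧸ Q)] (hQ : IsPGroup p Q)
    (hsup : Q ⊔ Subgroup.centralizer (Q : Set G) = ⊤) (φ η : Cfsg.IrrCharacter (G ⧸ Q)) :
    (Nat.card Q : ℂ) * Cfsg.classInner (regRes p (inflate Q φ : G → ℂ)) (inflate Q η : G → ℂ) =
      Cfsg.classInner (regRes p (φ : G ⧸ Q → ℂ)) (η : G ⧸ Q → ℂ) := by
  classical
  have hsum : ∑ g : G, regRes p (inflate Q φ : G → ℂ) g * conj ((inflate Q η : G → ℂ) g) =
      ∑ q : G ⧸ Q, regRes p (φ : G ⧸ Q → ℂ) q * conj ((η : G ⧸ Q → ℂ) q) := by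
    rw [← Finset.sum_filter_of_ne (p := fun g : G => ¬ p ∣ orderOf g) fun g _ hg h =>
        hg (by rw [H42.regRes_of_singular h, zero_mul]),
      ← Finset.sum_filter_of_ne (p := fun q : G ⧸ Q => ¬ p ∣ orderOf q) fun q _ hq h =>
        hq (by rw [H42.regRes_of_singular h, zero_mul])]
    refine Finset.sum_bij (fun g _ => (g : G ⧸ Q)) (fun g hg => ?_) (fun g hg g' hg' h => ?_)
      (fun q hq => ?_) fun g hg => ?_
    · simp only [Finset.mem_filter, Finset.mem_univ, true_and] at hg ⊢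
      exact fun h => hg (h.trans (H40.orderOf_mk_dvd g))
    · exact H40.regular_lift_unique hQ hsup (Finset.mem_filter.1 hg).2 (Finset.mem_filter.1 hg').2 h
    · obtain ⟨g, hg, rfl⟩ := H40.exists_regular_lift hQ (Finset.mem_filter.1 hq).2
      exact ⟨g, Finset.mem_filter.2 ⟨Finset.mem_univ _, hg⟩, rfl⟩
    · have hg' := (Finset.mem_filter.1 hg).2
      rw [H42.regRes_of_regular hg', H42.regRes_of_regular fun h => hg'
        (h.trans (H40.orderOf_mk_dvd g)), H44.inflate_apply, H44.inflate_apply]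
  rw [Cfsg.classInner, Cfsg.classInner, hsum, ← mul_assoc]
  congr 1
  have h1 : (Nat.card Q : ℂ) ≠ 0 := Nat.cast_ne_zero.2 Nat.card_pos.ne'
  rw [Subgroup.card_eq_card_quotient_mul_card_subgroup Q, Nat.cast_mul, mul_inv, mul_comm,
    mul_assoc, inv_mul_cancel₀ h1, mul_one]

end Cfsg.Agent.H20.BrauerFeit
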